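import Cfsg.Agent.H961.SevM
import Cfsg.Agent.BpSpor.MBigEleven

/-!
# S4114, row M: the centre of a Sylow 7-subgroup of the Monster is cyclic (helper544)

`w` is central in a Sylow 7-subgroup `P ≥ T = ⟨y, w, v, s⟩`, `T = P ∩ C(y)`, and every central element of `P` lies in
`⟨w⟩`; `C(w)` involves `A7`.
-/

set_option autoImplicit false
set_option maxRecDepth 100000

namespace Cfsg.Agent.H544.Ccp.MSeven

open Cfsg Cfsg.Spor Subgroup
open Cfsg.Agent.MonsterX Cfsg.Agent.MonsterX.InstData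
open Cfsg.Agent.MonsterP
open Cfsg.Agent.LThreeMB (fr XX Zx zD self self_mem_center toXX toCC be be_coe KChart.Cent KChart.pi KChart.chart
  exists_XX_equiv)
open Cfsg.Agent.H961.SevLift Cfsg.Agent.H961.SevM

section Loc

variable {K : Type*} [Group K] [Finite K] {y w v s a c : K}

/-- The centre of a Sylow 7-subgroup containing `T`. -/
theorem center_le (h : Loc y w v s a c) (h5 : ¬ 7 ^ 5 ∣ Nat.card ↥(centralizer ({y} : Set K)))
    (hK : 7 ^ 5 ∣ Nat.card K) : ∃ P : Sylow 7 K, (∀ u ∈ (P : Subgroup K),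
      (∀ r ∈ (P : Subgroup K), r * u = u * r) → u ∈ zpowers w) := by
  have hp7 : Nat.Prime 7 := by norm_num
  have : Fact (Nat.Prime 7) := ⟨hp7⟩
  obtain ⟨P, hP, hPw⟩ := h.sylow_le h5 hK
  refine ⟨P, fun u hu huc => ?_⟩
  have hPc : 7 ^ 5 ∣ Nat.card ↥(P : Subgroup K) := by
    rw [P.card_eq_multiplicity]
    exact pow_dvd_pow 7 ((hp7.pow_dvd_iff_le_factorization Nat.card_pos.ne').1 hK)
  have hPy : (P : Subgroup K) ⊓ centralizer ({y} : Set K) = TT y w v s :=
    h.eq_of_le h5 (P.isPGroup'.to_le inf_le_left) inf_le_right (le_inf hP h.TT_le_cy)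
  have huT : u ∈ TT y w v s := by
    rw [← hPy]
    exact ⟨hu, mem_centralizer_singleton_iff.2 (huc y (hP y_mem_TT)).symm⟩
  have huA := h.mem_TA h5 huT (fun t ht => huc t (hP ht))
  by_contra hne
  have h1 : zpowers u ⊔ zpowers w = TA y w := by
    apply eq_of_le_of_card_ge (sup_le (zpowers_le.2 huA) (zpowers_le.2 w_mem_TA))
    have h2 : ¬ 7 ^ 3 ∣ Nat.card ↥(TA y w) := by
      intro h3
      have h4 : 7 ^ 5 ∣ Nat.card ↥(TT y w v s) := by
        refine card_step hp7 h.pgroup (A := TB y w v) ?_ (k := 4) ?_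
        · refine lt_of_le_of_ne TB_le_TT fun h1 => h.s_notMem ?_
          rw [h1]
          exact s_mem_TT
        · refine card_step hp7 h.pgroup_TB (A := TA y w) ?_ (k := 3) h3
          refine lt_of_le_of_ne TA_le_TB fun h1 => h.v_notMem ?_
          rw [h1]
          exact v_mem_TB
      rw [h.card_eq h5] at h4
      norm_num at h4
    obtain ⟨m, hm⟩ := IsPGroup.iff_card.1 h.pgroup_TA
    rw [hm] at h2 ⊢
    have h3 : m ≤ 2 := by
      by_contra h4
      exact h2 (pow_dvd_pow 7 (by omega))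
    have h4 : 7 ^ 2 ∣ Nat.card ↥(zpowers u ⊔ zpowers w) := by
      refine card_step hp7 (h.pgroup_TA.to_le (sup_le (zpowers_le.2 huA) (zpowers_le.2 w_mem_TA))) (A := zpowers w) ?_
        (k := 1) ?_
      · refine lt_of_le_of_ne le_sup_right fun h5 => hne ?_
        rw [h5]
        exact mem_sup_left (mem_zpowers _)
      · rw [Nat.card_zpowers, orderOf_eq_prime h.w7 h.w1]
        norm_num
    exact (Nat.pow_le_pow_right (by norm_num) h3).trans (Nat.le_of_dvd Nat.card_pos h4)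
  have h2 : y ∈ zpowers u ⊔ zpowers w := by rw [h1]; exact y_mem_TA
  have h3 : (P : Subgroup K) ≤ centralizer ({y} : Set K) := by
    intro n hn
    have h3 : zpowers u ⊔ zpowers w ≤ centralizer ({n} : Set K) :=
      sup_le (zpowers_le.2 (mem_centralizer_singleton_iff.2 (huc n hn).symm))
        (zpowers_le.2 (mem_centralizer_singleton_iff.2 (mem_centralizer_singleton_iff.1 (hPw hn)).symm))
    exact mem_centralizer_singleton_iff.2 (mem_centralizer_singleton_iff.1 (h3 h2)).symm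
  exact h5 (hPc.trans (card_dvd_of_le h3))

end Loc

/-- **The centre of a Sylow 7-subgroup of the Monster.** -/
theorem seven' : ∃ (T : Sylow 7 ↥InstData.M.G) (w : ↥InstData.M.G), (∀ t ∈ (T : Subgroup ↥InstData.M.G),
    (∀ r ∈ (T : Subgroup ↥InstData.M.G), r * t = t * r) → t ∈ Subgroup.zpowers w) ∧
      ¬ Group.IsSolvable ↥(Subgroup.centralizer ({w} : Set ↥InstData.M.G)) := by
  have := MFive.Row.finite_model
  have hp7 : Nat.Prime 7 := by norm_num
  have : Fact (Nat.Prime 7) := ⟨hp7⟩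
  obtain ⟨y, v, s, a, c, w, hL, h5⟩ := exists_data'
  obtain ⟨T, hT⟩ := center_le hL h5 (by rw [H961.SevM.card_model]; norm_num)
  refine ⟨T, w, hT, fun hsol => ?_⟩
  have hwo' : orderOf (w : ↥InstData.M.G) = 7 := orderOf_eq_prime hL.w7 hL.w1
  have hwo : orderOf w = 7 := by rw [← Subgroup.orderOf_coe, hwo']
  have hw7 : w ^ 7 = 1 := by rw [← hwo, pow_orderOf_eq_one]
  have hfr := H961.SevM.fr_eq_one hL h5 hwo
  have h := KChart.chart KDone.lft MFive.Row.hc
  obtain ⟨hAs, hAc, hA⟩ := H961.SevX.xx_facts (MFive.orderOf_pi h hp7 (by decide) hwo) hfr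
  have h1 : Group.IsSolvable ↥(centralizer ({zD w} : Set ↥(centralizer ({(w : ↥InstData.M.G)} : Set ↥InstData.M.G)))) :=
    inferInstance
  have h2 : Group.IsSolvable (XX (KChart.pi MFive.Row.hc w)) :=
    Group.isSolvable_of_surjective (MFive.toXX_surj h hp7 (by decide) hw7)
  exact hAc ⟨⟨IsSimpleGroup.comm_iff_isSolvable.2 h2⟩⟩

/-- **The centre of a Sylow 7-subgroup of the Monster.** -/
theorem seven : ∃ (T : Sylow 7 Cfsg.Agent.BpSpor.MBigModel.MG) (w : Cfsg.Agent.BpSpor.MBigModel.MG),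
    (∀ t ∈ (T : Subgroup Cfsg.Agent.BpSpor.MBigModel.MG),
      (∀ r ∈ (T : Subgroup Cfsg.Agent.BpSpor.MBigModel.MG), r * t = t * r) → t ∈ Subgroup.zpowers w) ∧
      ¬ Group.IsSolvable ↥(Subgroup.centralizer ({w} : Set Cfsg.Agent.BpSpor.MBigModel.MG)) := seven'

end Cfsg.Agent.H544.Ccp.MSeven
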